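import Groth.Agent.Krr.H498.LFRes
import Groth.Agent.Krr.H447.Syz
import Groth.Agent.Krr.H444.LFPerf
import Groth.Agent.Dcoh.Spread
import Groth.Agent.Dcoh.PerfFlat
import Groth.Agent.CycB.StalkExact

/-!
# `HasLFRes` on a locally Noetherian scheme with enough locally free modules, in terms of stalks

`hasLFRes_iff_stalk`: `HasLFRes F ↔ Coh.IsCoh F ∧ ∃ n, ∀ y, pd_{O_y} F_y ≤ n`; two out of three in short exact sequences.
-/

set_option autoImplicit false
universe u
open CategoryTheory CategoryTheory.Limits AlgebraicGeometry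

namespace Groth.Agent.Krr.H489.StalkPd

open Groth.Agent Groth.Agent.CycB.StalkExact

variable {Y : Scheme.{u}}

/-- The stalk as a module over the local ring. -/
noncomputable abbrev stM (M : Y.Modules) (y : Y) : ModuleCat.{u} (Y.presheaf.stalk y) :=
  ModuleCat.of (Y.presheaf.stalk y) (M.presheaf.stalk y)

/-- The stalks of a short exact sequence. -/
theorem exists_shortExact {S : ShortComplex Y.Modules} (hS : S.ShortExact) (y : Y) :
    ∃ T : ShortComplex (ModuleCat.{u} (Y.presheaf.stalk y)), T.ShortExact ∧ T.X₁ = stM S.X₁ y ∧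
      T.X₂ = stM S.X₂ y ∧ T.X₃ = stM S.X₃ y := by
  obtain ⟨e1, e2, e3⟩ := stalkLin_shortExact S hS y
  refine ⟨ShortComplex.mk (X₁ := stM S.X₁ y) (X₂ := stM S.X₂ y) (X₃ := stM S.X₃ y)
    (ModuleCat.ofHom (stalkLin S.f y)) (ModuleCat.ofHom (stalkLin S.g y))
    (by ext x; exact e2.apply_apply_eq_zero x), ?_, rfl, rfl, rfl⟩
  exact
    { exact := (ShortComplex.ShortExact.moduleCat_exact_iff_function_exact _).2 e2
      mono_f := (ModuleCat.mono_iff_injective _).2 e1
      epi_g := (ModuleCat.epi_iff_surjective _).2 e3 }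

/-- All stalks have projective dimension at most `n`. -/
def StPd (n : ℕ) (M : Y.Modules) : Prop := ∀ y : Y, HasProjectiveDimensionLE (stM M y) n

theorem StPd.mono {n m : ℕ} {M : Y.Modules} (h : StPd n M) (hnm : n ≤ m) : StPd m M := fun y =>
  have := h y
  hasProjectiveDimensionLT_of_ge _ (n + 1) (m + 1) (Nat.succ_le_succ hnm)

theorem projective_stM {E : Y.Modules} (hE : FlatMod.IsFinLocFree E) (y : Y) : Projective (stM E y) := by
  obtain ⟨n, ⟨b⟩⟩ := Dcoh.PerfFlat.exists_basis_stalk hE y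
  have : Module.Free (Y.presheaf.stalk y) (stM E y) := Module.Free.of_basis b
  exact (IsProjective.iff_projective _).1 (inferInstance : Module.Projective _ (stM E y))

theorem stPd_of_isFinLocFree {E : Y.Modules} (hE : FlatMod.IsFinLocFree E) : StPd 0 E := fun y => by
  have := projective_stM hE y
  rw [← projective_iff_hasProjectiveDimensionLE_zero]
  exact this

theorem stPd_left {S : ShortComplex Y.Modules} (hS : S.ShortExact) {n : ℕ} (h₂ : StPd n S.X₂)
    (h₃ : StPd (n + 1) S.X₃) : StPd n S.X₁ := by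
  intro y
  obtain ⟨T, hT, e1, e2, e3⟩ := exists_shortExact hS y
  have h2 := h₂ y
  have h3 := h₃ y
  rw [← e2] at h2
  rw [← e3] at h3
  rw [← e1]
  exact hT.hasProjectiveDimensionLT_X₁ (n + 1) h2 h3

theorem stPd_mid {S : ShortComplex Y.Modules} (hS : S.ShortExact) {n : ℕ} (h₁ : StPd n S.X₁)
    (h₃ : StPd n S.X₃) : StPd n S.X₂ := by
  intro y
  obtain ⟨T, hT, e1, e2, e3⟩ := exists_shortExact hS y
  have h1 := h₁ y
  have h3 := h₃ y
  rw [← e1] at h1
  rw [← e3] at h3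
  rw [← e2]
  exact hT.hasProjectiveDimensionLT_X₂ (n + 1) h1 h3

theorem stPd_right {S : ShortComplex Y.Modules} (hS : S.ShortExact) {n : ℕ} (h₁ : StPd n S.X₁)
    (h₂ : StPd (n + 1) S.X₂) : StPd (n + 1) S.X₃ := by
  intro y
  obtain ⟨T, hT, e1, e2, e3⟩ := exists_shortExact hS y
  have h1 := h₁ y
  have h2 := h₂ y
  rw [← e1] at h1
  rw [← e2] at h2
  rw [← e3]
  exact hT.hasProjectiveDimensionLT_X₃ (n + 1) h1 h2

/-- The kernel of an epimorphism, as a short exact sequence. -/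
noncomputable def kerSeq {M N : Y.Modules} (p : M ⟶ N) : ShortComplex Y.Modules :=
  ShortComplex.mk (kernel.ι p) p (kernel.condition p)

theorem kerSeq_shortExact {M N : Y.Modules} (p : M ⟶ N) [Epi p] : (kerSeq p).ShortExact where
  exact := ShortComplex.exact_kernel p
  mono_f := inferInstanceAs (Mono (kernel.ι p))
  epi_g := inferInstanceAs (Epi p)

theorem isFlat_of_stPd_zero {M : Y.Modules} (h : StPd 0 M) : FlatMod.IsFlat M := by
  intro y
  have h1 := h y
  rw [← projective_iff_hasProjectiveDimensionLE_zero] at h1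
  have h2 : Module.Projective (Y.presheaf.stalk y) (M.presheaf.stalk y) := (IsProjective.iff_projective _).2 h1
  exact Module.Flat.of_projective

/-- A coherent module with projective stalks is finite locally free. -/
theorem isFinLocFree_of_stPd_zero [IsLocallyNoetherian Y] (hY : KRR.HasEnoughLocFree Y) {M : Y.Modules}
    (hM : Coh.IsCoh M) (h : StPd 0 M) : FlatMod.IsFinLocFree M := by
  obtain ⟨E, p, hE, hp⟩ := hY M hM
  have hK : Coh.IsCoh (kernel p) :=
    PerfA.CohSerre.isCoh_kernel p (PerfA.CohSerre.isCoh_of_isFinLocFree hE) hM.1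
  obtain ⟨E', p', hE', hp'⟩ := hY (kernel p) hK
  have hex : (ShortComplex.mk (p' ≫ kernel.ι p) p (by rw [Category.assoc, kernel.condition, comp_zero])).Exact := by
    let φ : ShortComplex.mk (p' ≫ kernel.ι p) p (by rw [Category.assoc, kernel.condition, comp_zero]) ⟶
        ShortComplex.mk (kernel.ι p) p (kernel.condition p) :=
      { τ₁ := p', τ₂ := 𝟙 _, τ₃ := 𝟙 _ }
    have : Epi φ.τ₁ := hp'
    have : IsIso φ.τ₂ := inferInstanceAs (IsIso (𝟙 _))
    have : Mono φ.τ₃ := inferInstanceAs (Mono (𝟙 _))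
    rw [ShortComplex.exact_iff_of_epi_of_isIso_of_mono φ]
    exact ShortComplex.exact_kernel p
  exact Dcoh.Spread.isFinLocFree_of_cokernel hE' hE (p' ≫ kernel.ι p) p _ hex.gIsCokernel
    (isFlat_of_stPd_zero h)

theorem hasLFRes_of_stPd [IsLocallyNoetherian Y] (hY : KRR.HasEnoughLocFree Y) (n : ℕ) :
    ∀ M : Y.Modules, Coh.IsCoh M → StPd n M → KRR.HasLFRes M := by
  induction n with
  | zero =>
    intro M hM h
    exact Krr.H444.LFPerf.hasLFRes_of_isFinLocFree (isFinLocFree_of_stPd_zero hY hM h)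
  | succ n ih =>
    intro M hM h
    obtain ⟨E, p, hE, hp⟩ := hY M hM
    have hS := kerSeq_shortExact p
    have hK : Coh.IsCoh (kernel p) :=
      PerfA.CohSerre.isCoh_kernel p (PerfA.CohSerre.isCoh_of_isFinLocFree hE) hM.1
    have h1 : StPd n (kernel p) := stPd_left hS ((stPd_of_isFinLocFree hE).mono (Nat.zero_le _)) h
    exact Krr.H444.LFPerf.hasLFRes_splice hS hE (ih _ hK h1)

theorem stPd_of_hasLFRes {M : Y.Modules} (h : KRR.HasLFRes M) : Coh.IsCoh M ∧ ∃ n, StPd n M := by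
  obtain ⟨n, c, hc⟩ := Krr.H498.LFRes.hasLFRes_iff.1 h
  refine ⟨(Krr.H498.LFRes.pdLE_and_isCoh_of_res hc).2, n, ?_⟩
  clear h
  induction hc with
  | zero M hM => exact stPd_of_isFinLocFree hM
  | succ n S hS h₂ c h ih => exact stPd_right hS ih ((stPd_of_isFinLocFree h₂).mono (Nat.zero_le _))

/-- `HasLFRes` in terms of stalks. -/
theorem hasLFRes_iff_stPd [IsLocallyNoetherian Y] (hY : KRR.HasEnoughLocFree Y) {M : Y.Modules} :
    KRR.HasLFRes M ↔ Coh.IsCoh M ∧ ∃ n, StPd n M :=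
  ⟨stPd_of_hasLFRes, fun ⟨h, n, h'⟩ => hasLFRes_of_stPd hY n M h h'⟩

section TwoOutOfThree

variable [IsLocallyNoetherian Y] (hY : KRR.HasEnoughLocFree Y) {S : ShortComplex Y.Modules} (hS : S.ShortExact)

include hY hS

theorem hasLFRes_right (h₁ : KRR.HasLFRes S.X₁) (h₂ : KRR.HasLFRes S.X₂) : KRR.HasLFRes S.X₃ := by
  obtain ⟨c1, n1, h1⟩ := stPd_of_hasLFRes h₁
  obtain ⟨c2, n2, h2⟩ := stPd_of_hasLFRes h₂
  have hc : Coh.IsCoh S.X₃ := by
    have h3 : Coh.IsCoh (cokernel S.f) := PerfA.CohSerre.isCoh_cokernel S.f c1.1 c2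
    exact PerfA.CohSerre.isCoh_of_iso
        (IsColimit.coconePointUniqueUpToIso (cokernelIsCokernel S.f) hS.gIsCokernel) h3
  exact hasLFRes_of_stPd hY (max n1 n2 + 1) S.X₃ hc
    (stPd_right hS (h1.mono (le_max_left _ _)) (h2.mono ((le_max_right _ _).trans (Nat.le_succ _))))

omit hY in
theorem isCoh_left (h₂ : Coh.IsCoh S.X₂) (h₃ : Coh.IsCoh S.X₃) : Coh.IsCoh S.X₁ := by
  have h1 : Coh.IsCoh (kernel S.g) := PerfA.CohSerre.isCoh_kernel S.g h₂ h₃.1
  exact PerfA.CohSerre.isCoh_of_iso (IsLimit.conePointUniqueUpToIso (kernelIsKernel S.g) hS.fIsKernel) h1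

theorem hasLFRes_left (h₂ : KRR.HasLFRes S.X₂) (h₃ : KRR.HasLFRes S.X₃) : KRR.HasLFRes S.X₁ := by
  obtain ⟨c2, n2, h2⟩ := stPd_of_hasLFRes h₂
  obtain ⟨c3, n3, h3⟩ := stPd_of_hasLFRes h₃
  exact hasLFRes_of_stPd hY (max n2 n3) S.X₁ (isCoh_left hS c2 c3)
    (stPd_left hS (h2.mono (le_max_left _ _)) (h3.mono ((le_max_right _ _).trans (Nat.le_succ _))))

theorem hasLFRes_mid (h₁ : KRR.HasLFRes S.X₁) (h₃ : KRR.HasLFRes S.X₃) (hc : Coh.IsCoh S.X₂) :
    KRR.HasLFRes S.X₂ := by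
  obtain ⟨c1, n1, h1⟩ := stPd_of_hasLFRes h₁
  obtain ⟨c3, n3, h3⟩ := stPd_of_hasLFRes h₃
  exact hasLFRes_of_stPd hY (max n1 n3) S.X₂ hc
    (stPd_mid hS (h1.mono (le_max_left _ _)) (h3.mono (le_max_right _ _)))

end TwoOutOfThree

end Groth.Agent.Krr.H489.StalkPd
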